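import Cfsg.Agent.ExtremelyClosed.Local

/-!
# Extremely closed abelian 2-subgroups

* `concl`: if `H` is an extremely closed abelian 2-subgroup then `G = N(H) O(G)`.
-/

set_option autoImplicit false
set_option linter.style.haveILetI false

namespace CfsgLib.ExtremelyClosed

open Cfsg CfsgLib.ZStar

open scoped Pointwise

universe u

variable {G : Type u} [Group G] [Finite G] {H : Subgroup G}

/-- An involution of `H`. -/
def Inv (H : Subgroup G) (v : G) : Prop := v ∈ H ∧ orderOf v = 2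

theorem Inv.mul_self {v : G} (hv : Inv H v) : v * v = 1 := by
  rw [← pow_two, ← hv.2, pow_orderOf_eq_one]

theorem Inv.inv_eq {v : G} (hv : Inv H v) : v⁻¹ = v := inv_eq_of_mul_eq_one_right hv.mul_self

/-- The induction hypothesis on centralizers of involutions. -/
def CentConcl (H : Subgroup G) : Prop :=
  ∀ v, Inv H v → Concl (H.subgroupOf (Subgroup.centralizer ({v} : Set G)))

section

variable (h : EC H) (hC : CentConcl H)

include h hC

/-- Elements of odd order congruent to `1` modulo `H O(C(v))`. -/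
theorem mem_R_of {v w x : G} (hv : Inv H v) (hw : Inv H w) {K : Subgroup G}
    (hK : Odd (Nat.card K)) (hx : x ∈ K) (hxv : Commute v x) (hwx : w * x * w⁻¹ ∈ K) :
    x⁻¹ * (w * x * w⁻¹) ∈ R v := by
  set C := Subgroup.centralizer ({v} : Set G)
  have hxC : x⁻¹ ∈ C := Subgroup.mem_centralizer_singleton_iff.mpr hxv.inv_right.eq.symm
  obtain ⟨⟨k, hkC⟩, hk, ⟨n, hnC⟩, hn, he⟩ := hC v hv ⟨x⁻¹, hxC⟩
  have he' : x⁻¹ = k * n := congrArg Subtype.val he
  have hkR : k ∈ R v := mem_coreC_zpowers hkC hk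
  have hwC : w ∈ C := Subgroup.mem_centralizer_singleton_iff.mpr (h.commute hw.1 hv.1).eq
  have hw' : n * w * n⁻¹ ∈ H :=
    (Subgroup.mem_normalizer_iff.mp hn (⟨w, hwC⟩ : C)).mp hw.1
  set w' := n * w * n⁻¹ with hw'def
  have hcw' : Commute v w' := h.commute hv.1 hw'
  set y := x⁻¹ * (w * x * w⁻¹) with hy
  have hy' : y = (k * (w' * k⁻¹ * w'⁻¹)) * (w' * w⁻¹) := by
    calc y = (x⁻¹ * w * x⁻¹⁻¹) * w⁻¹ := by rw [hy]; group
      _ = _ := by rw [he', hw'def]; group
  have hyodd : Odd (orderOf y) := orderOf_odd hK (mul_mem (inv_mem hx) hwx)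
  have hrR : k * (w' * k⁻¹ * w'⁻¹) ∈ R v := mul_mem hkR (conj_mem_R hcw' (inv_mem hkR))
  rw [hy'] at hyodd ⊢
  rw [eq_one_of_mul_odd (odd_card_R v) hrR
    (mem_normalizer_R (hcw'.mul_right (h.commute hv.1 hw.1).inv_right))
    (h.exists_orderOf (mul_mem hw' (inv_mem hw.1))) hyodd, mul_one]
  exact hrR

/-- Splitting inside `C(v)` under a further involution. -/
theorem split_R {v w x : G} (hv : Inv H v) (hw : Inv H w) {K : Subgroup G}
    (hK : Odd (Nat.card K)) (hn : ∀ y ∈ K, w * y * w⁻¹ ∈ K) (hx : x ∈ K) (hxv : Commute v x) :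
    ∃ c ∈ K, Commute w c ∧ Commute v c ∧ ∃ i ∈ R v, x = c * i ∧ w * i * w⁻¹ = i⁻¹ ∧
      ∀ u, Commute u w → Commute u x → Commute u c := by
  obtain ⟨c, hc, hwc, i, hi, hwi, hxci, hii⟩ := exists_split hK hw.mul_self hn hx
  have h1 : i * i ∈ R v := by
    rw [hii, show (w * x * w⁻¹)⁻¹ * x = (x⁻¹ * (w * x * w⁻¹))⁻¹ by group]
    exact inv_mem (mem_R_of h hC hv hw hK hx hxv (hn x hx))
  have hie : i = half (i * i) := eq_half (orderOf_odd hK hi) rfl
  have hiR : i ∈ R v := hie ▸ half_mem h1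
  have hcx : c = x * i⁻¹ := by rw [hxci, mul_inv_cancel_right]
  refine ⟨c, hc, hwc, ?_, i, hiR, hxci, hwi, fun u huw hux => ?_⟩
  · rw [hcx]; exact hxv.mul_right (commute_of_mem_R hiR).inv_right
  · have hui : Commute u i := by
      rw [hie, hii, half]
      exact Commute.pow_right
        (((huw.mul_right hux).mul_right huw.inv_right).inv_right.mul_right hux) _
    rw [hcx]
    exact hux.mul_right hui.inv_right

/-- A four-group: two involutions. -/
structure Four (H : Subgroup G) (a b : G) : Prop where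
  inv₁ : Inv H a
  inv₂ : Inv H b
  ne : a ≠ b

omit hC in
theorem Four.inv₃ {a b : G} (hab : Four H a b) : Inv H (a * b) := by
  refine ⟨mul_mem hab.inv₁.1 hab.inv₂.1, orderOf_eq_prime ?_ ?_⟩
  · rw [(h.commute hab.inv₁.1 hab.inv₂.1).mul_pow, pow_two, pow_two, hab.inv₁.mul_self,
      hab.inv₂.mul_self, one_mul]
  · intro e
    exact hab.ne (by rw [← hab.inv₁.inv_eq]; exact inv_eq_of_mul_eq_one_right e)

/-- The three involutions. -/
def Mem (a b p : G) : Prop := p = a ∨ p = b ∨ p = a * b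

/-- The common centralizer. -/
abbrev cen (a b : G) : Subgroup G := Subgroup.centralizer ({a, b} : Set G)

omit h hC in
theorem mem_cen {a b c : G} : c ∈ cen a b ↔ Commute a c ∧ Commute b c := by
  rw [Subgroup.mem_centralizer_iff]
  constructor
  · exact fun e => ⟨e a (Or.inl rfl), e b (Or.inr rfl)⟩
  · rintro ⟨e1, e2⟩ x (rfl | rfl)
    exacts [e1, e2]

/-- `O(C(v)) C(V)`. -/
abbrev M (a b v : G) : Subgroup G := R v ⊔ cen a b

omit h hC in
theorem commute_of_Mem {a b p c : G} (hp : Mem a b p) (hc : c ∈ cen a b) : Commute p c := by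
  obtain ⟨h1, h2⟩ := mem_cen.mp hc
  rcases hp with rfl | rfl | rfl
  exacts [h1, h2, h1.mul_left h2]

omit h hC in
theorem mem_M_iff {a b v x : G} (hv : Mem a b v) :
    x ∈ M a b v ↔ ∃ r ∈ R v, ∃ c ∈ cen a b, x = r * c := by
  have hle : cen a b ≤ Subgroup.normalizer (R v : Set G) := fun c hc =>
    mem_normalizer_R (commute_of_Mem hv hc)
  rw [← SetLike.mem_coe, Subgroup.coe_mul_of_right_le_normalizer_left _ _ hle, Set.mem_mul]
  exact ⟨fun ⟨r, hr, c, hc, e⟩ => ⟨r, hr, c, hc, e.symm⟩,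
    fun ⟨r, hr, c, hc, e⟩ => ⟨r, hr, c, hc, e.symm⟩⟩

/-- Elements of an invariant odd subgroup centralizing `v` lie in `O(C(v)) C(V)`. -/
theorem mem_M_of {a b p q : G} (hp : Inv H p) (hq : Inv H q) (hp' : Mem a b p)
    (hgen : ∀ z, Commute p z → Commute q z → z ∈ cen a b) {K : Subgroup G}
    (hK : Odd (Nat.card K)) (hn : ∀ y ∈ K, q * y * q⁻¹ ∈ K) {x : G} (hx : x ∈ K)
    (hxp : Commute p x) : x ∈ M a b p := by
  obtain ⟨c, -, hqc, hpc, i, hi, rfl, -, -⟩ := split_R h hC hp hq hK hn hx hxp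
  exact mul_mem (Subgroup.mem_sup_right (hgen c hpc hqc)) (Subgroup.mem_sup_left hi)

/-- Factorization of an invariant odd subgroup. -/
theorem subset_prod {a b p q : G} (hp : Inv H p) (hq : Inv H q) (hpq : Inv H (p * q))
    (hp' : Mem a b p) (hq' : Mem a b q) (hpq' : Mem a b (p * q))
    (hgen : ∀ z, Commute p z → Commute q z → z ∈ cen a b) {K : Subgroup G}
    (hK : Odd (Nat.card K)) (hnp : ∀ y ∈ K, p * y * p⁻¹ ∈ K) (hnq : ∀ y ∈ K, q * y * q⁻¹ ∈ K) :
    (K : Set G) ⊆ (M a b p : Set G) * M a b q * M a b (p * q) := by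
  intro x hx
  obtain ⟨x1, h1, c1, x2, h2, c2, x3, h3, c3, rfl⟩ :=
    exists_three_factor hK (h.commute hp.1 hq.1) hp.mul_self hq.mul_self hnp hnq hx
  refine Set.mul_mem_mul (Set.mul_mem_mul ?_ ?_) ?_
  · exact mem_M_of h hC hp hq hp' hgen hK hnq h1 c1
  · exact mem_M_of h hC hq hp hq' (fun z e1 e2 => hgen z e2 e1) hK hnp h2 c2
  · refine mem_M_of h hC hpq hq hpq' (fun z e1 e2 => hgen z ?_ e2) hK hnq h3 c3
    have := e1.mul_left e2
    rwa [mul_assoc, hq.mul_self, mul_one] at this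

/-- A product from two of the factors. -/
theorem mul_subset_prod {a b v w p q : G} (hv : Inv H v) (hw : Inv H w) (hp : Inv H p)
    (hq : Inv H q) (hpq : Inv H (p * q)) (hv' : Mem a b v) (hw' : Mem a b w)
    (hp' : Mem a b p) (hq' : Mem a b q) (hpq' : Mem a b (p * q))
    (hgenvw : ∀ z, Commute v z → Commute w z → z ∈ cen a b)
    (hgen : ∀ z, Commute p z → Commute q z → z ∈ cen a b)
    (hpm : Mem v w p) (hqm : Mem v w q) :
    (M a b v : Set G) * M a b w ⊆ (M a b p : Set G) * M a b q * M a b (p * q) := by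
  rintro _ ⟨m, hm, m', hm', rfl⟩
  obtain ⟨r, hr, c0, hc0, rfl⟩ := (mem_M_iff hv').mp hm
  obtain ⟨s0, hs0, c1, hc1, rfl⟩ := (mem_M_iff hw').mp hm'
  set s := c0 * s0 * c0⁻¹ with hs'
  have hs : s ∈ R w := conj_mem_R (commute_of_Mem hw' hc0) hs0
  show r * c0 * (s0 * c1) ∈ _
  rw [show r * c0 * (s0 * c1) = r * s * (c0 * c1) by rw [hs']; group]
  obtain ⟨cr, -, hwcr, hvcr, ir, hir, hri, hwir, -⟩ := split_R h hC hv hw (odd_card_R v)
    (fun y hy => conj_mem_R (h.commute hv.1 hw.1) hy) hr (commute_of_mem_R hr)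
  obtain ⟨cs, -, hvcs, hwcs, is, his, hsi, hvis, -⟩ := split_R h hC hw hv (odd_card_R w)
    (fun y hy => conj_mem_R (h.commute hw.1 hv.1) hy) hs (commute_of_mem_R hs)
  have hcr : cr ∈ cen a b := hgenvw cr hvcr hwcr
  have hcs : cs ∈ cen a b := hgenvw cs hvcs hwcs
  set i' := cs * is * cs⁻¹ with hi'
  have hi'R : i' ∈ R w := conj_mem_R hwcs his
  have hvi' : v * i' * v⁻¹ = i'⁻¹ := by
    calc v * i' * v⁻¹ = (v * cs * v⁻¹) * (v * is * v⁻¹) * (v * cs * v⁻¹)⁻¹ := by
          rw [hi']; group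
      _ = i'⁻¹ := by rw [mul_inv_eq_iff_eq_mul.mpr hvcs.eq, hvis, hi']; group
  -- the common odd subgroup
  obtain ⟨K, hK, hKn, hKodd⟩ := h.exists_core₂ ir i'
  set T := H.map (MulAut.conj ir).toMonoidHom ⊔ H.map (MulAut.conj i').toMonoidHom
  have hirv : ir * v * ir⁻¹ = v :=
    mul_inv_eq_iff_eq_mul.mpr (commute_of_mem_R hir).eq.symm
  have hi'w : i' * w * i'⁻¹ = w :=
    mul_inv_eq_iff_eq_mul.mpr (commute_of_mem_R hi'R).eq.symm
  have hvT : v ∈ T := Subgroup.mem_sup_left ⟨v, hv.1, hirv⟩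
  have hwT : w ∈ T := Subgroup.mem_sup_right ⟨w, hw.1, hi'w⟩
  have hirK : ir ∈ K := by
    have h2 : ir * ir ∈ T := by
      have e : ir * ir = (ir * w * ir⁻¹) * w⁻¹ := by
        calc ir * ir = ir * (w * ir * w⁻¹)⁻¹ := by rw [hwir, inv_inv]
          _ = _ := by group
      rw [e]
      exact mul_mem (Subgroup.mem_sup_left ⟨w, hw.1, rfl⟩) (inv_mem hwT)
    have h3 : ir * ir ∈ K :=
      hKodd _ h2 (orderOf_odd (odd_card_R v) (mul_mem hir hir))
    rw [eq_half (orderOf_odd (odd_card_R v) hir) (rfl : ir * ir = ir * ir)]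
    exact half_mem h3
  have hi'K : i' ∈ K := by
    have h2 : i' * i' ∈ T := by
      have e : i' * i' = (i' * v * i'⁻¹) * v⁻¹ := by
        calc i' * i' = i' * (v * i' * v⁻¹)⁻¹ := by rw [hvi', inv_inv]
          _ = _ := by group
      rw [e]
      exact mul_mem (Subgroup.mem_sup_right ⟨v, hv.1, rfl⟩) (inv_mem hvT)
    have h3 : i' * i' ∈ K :=
      hKodd _ h2 (orderOf_odd (odd_card_R w) (mul_mem hi'R hi'R))
    rw [eq_half (orderOf_odd (odd_card_R w) hi'R) (rfl : i' * i' = i' * i')]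
    exact half_mem h3
  have hTmem : ∀ z, Mem v w z → z ∈ T := by
    rintro z (rfl | rfl | rfl)
    exacts [hvT, hwT, mul_mem hvT hwT]
  obtain ⟨m12, ⟨m1, hm1, m2, hm2, rfl⟩, m3, hm3, he⟩ := subset_prod h hC hp hq hpq hp' hq' hpq'
    hgen hK (hKn p (hTmem p hpm)) (hKn q (hTmem q hqm)) (mul_mem hirK hi'K)
  refine ⟨(cr * m1 * cr⁻¹) * (cr * m2 * cr⁻¹), ⟨cr * m1 * cr⁻¹, ?_, cr * m2 * cr⁻¹, ?_, rfl⟩,
    (cr * m3 * cr⁻¹) * (cr * cs * (c0 * c1)), ?_, ?_⟩
  · exact mul_mem (mul_mem (Subgroup.mem_sup_right hcr) hm1) (inv_mem (Subgroup.mem_sup_right hcr))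
  · exact mul_mem (mul_mem (Subgroup.mem_sup_right hcr) hm2) (inv_mem (Subgroup.mem_sup_right hcr))
  · exact mul_mem (mul_mem (mul_mem (Subgroup.mem_sup_right hcr) hm3)
      (inv_mem (Subgroup.mem_sup_right hcr)))
      (Subgroup.mem_sup_right (mul_mem (mul_mem hcr hcs) (mul_mem hc0 hc1)))
  · have he' : m1 * m2 * m3 = ir * i' := he
    calc cr * m1 * cr⁻¹ * (cr * m2 * cr⁻¹) * (cr * m3 * cr⁻¹ * (cr * cs * (c0 * c1)))
        = cr * (m1 * m2 * m3) * cs * (c0 * c1) := by group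
      _ = r * s * (c0 * c1) := by rw [he', hri, hsi, hi']; group

omit hC in
theorem Four.symm {a b : G} (hab : Four H a b) : Four H b a :=
  ⟨hab.inv₂, hab.inv₁, hab.ne.symm⟩

/-- The product of the three factors. -/
abbrev X (a b : G) : Set G := (M a b a : Set G) * M a b b * M a b (a * b)

/-- The product is closed. -/
theorem closed_X {a b : G} (hab : Four H a b) :
    ∀ g ∈ M a b a ⊔ M a b b ⊔ M a b (a * b), g ∈ X a b := by
  have ha := hab.inv₁
  have hb := hab.inv₂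
  have hc := hab.inv₃ h
  have hcomm := h.commute ha.1 hb.1
  have haa := ha.mul_self
  have hbb := hb.mul_self
  have Ma : Mem a b a := Or.inl rfl
  have Mb : Mem a b b := Or.inr (Or.inl rfl)
  have Mc : Mem a b (a * b) := Or.inr (Or.inr rfl)
  have eac : a * (a * b) = b := by rw [← mul_assoc, haa, one_mul]
  have ebc : b * (a * b) = a := by rw [hcomm.eq, ← mul_assoc, hbb, one_mul]
  have eca : a * b * a = b := by rw [hcomm.eq, mul_assoc, haa, mul_one]
  have ecb : a * b * b = a := by rw [mul_assoc, hbb, mul_one]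
  have eba : b * a = a * b := hcomm.eq.symm
  have gab : ∀ z, Commute a z → Commute b z → z ∈ cen a b := fun z e1 e2 => mem_cen.mpr ⟨e1, e2⟩
  have gba : ∀ z, Commute b z → Commute a z → z ∈ cen a b := fun z e1 e2 => mem_cen.mpr ⟨e2, e1⟩
  have gac : ∀ z, Commute a z → Commute (a * b) z → z ∈ cen a b := fun z e1 e2 =>
    mem_cen.mpr ⟨e1, eac ▸ e1.mul_left e2⟩
  have gca : ∀ z, Commute (a * b) z → Commute a z → z ∈ cen a b := fun z e1 e2 => gac z e2 e1
  have gbc : ∀ z, Commute b z → Commute (a * b) z → z ∈ cen a b := fun z e1 e2 =>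
    mem_cen.mpr ⟨ebc ▸ e1.mul_left e2, e1⟩
  have gcb : ∀ z, Commute (a * b) z → Commute b z → z ∈ cen a b := fun z e1 e2 => gbc z e2 e1
  -- `Mb Ma ⊆ Ma Mb Mc`
  have P1 : (M a b b : Set G) * M a b a ⊆ X a b :=
    mul_subset_prod h hC hb ha ha hb hc Mb Ma Ma Mb Mc gba gab (Or.inr (Or.inl rfl)) (Or.inl rfl)
  -- `Mb Ma ⊆ Ma Mc Mb`
  have P2 : (M a b b : Set G) * M a b a ⊆ (M a b a : Set G) * M a b (a * b) * M a b b := by
    have := mul_subset_prod h hC hb ha ha hc (eac.symm ▸ hb) Mb Ma Ma Mc (eac.symm ▸ Mb) gba gac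
      (Or.inr (Or.inl rfl)) (Or.inr (Or.inr eba.symm))
    rwa [eac] at this
  -- `Mc Mb ⊆ Mb Ma Mc`
  have P3 : (M a b (a * b) : Set G) * M a b b ⊆
      (M a b b : Set G) * M a b a * M a b (a * b) := by
    have := mul_subset_prod h hC hc hb hb ha (eba.symm ▸ hc) Mc Mb Mb Ma (eba.symm ▸ Mc) gcb gba
      (Or.inr (Or.inl rfl)) (Or.inr (Or.inr ecb.symm))
    rwa [eba] at this
  -- `Mc Ma ⊆ Ma Mb Mc`
  have P4 : (M a b (a * b) : Set G) * M a b a ⊆ X a b :=
    mul_subset_prod h hC hc ha ha hb hc Mc Ma Ma Mb Mc gca gab (Or.inr (Or.inl rfl))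
      (Or.inr (Or.inr eca.symm))
  have idem : ∀ v : G, (M a b v : Set G) * M a b v = M a b v := fun v => coe_mul_coe (M a b v)
  have S1 : (M a b a : Set G) * X a b ⊆ X a b := by
    simp only [X, ← mul_assoc, idem]; exact le_rfl
  have key : (M a b a : Set G) * (M a b b * M a b a) * M a b (a * b) ⊆ X a b :=
    calc (M a b a : Set G) * (M a b b * M a b a) * M a b (a * b)
        ⊆ (M a b a : Set G) * X a b * M a b (a * b) :=
          Set.mul_subset_mul_right (Set.mul_subset_mul_left P1)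
      _ ⊆ X a b * M a b (a * b) := Set.mul_subset_mul_right S1
      _ = X a b := by simp only [X, mul_assoc, idem]
  have S2 : (M a b b : Set G) * X a b ⊆ X a b :=
    calc (M a b b : Set G) * X a b
        = (M a b b * M a b a : Set G) * (M a b b * M a b (a * b)) := by simp only [X, mul_assoc]
      _ ⊆ (M a b a : Set G) * M a b (a * b) * M a b b * (M a b b * M a b (a * b)) :=
          Set.mul_subset_mul_right P2
      _ = (M a b a : Set G) * (M a b (a * b) * (M a b b * M a b b)) * M a b (a * b) := by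
          simp only [mul_assoc]
      _ = (M a b a : Set G) * (M a b (a * b) * M a b b) * M a b (a * b) := by rw [idem]
      _ ⊆ (M a b a : Set G) * (M a b b * M a b a * M a b (a * b)) * M a b (a * b) :=
          Set.mul_subset_mul_right (Set.mul_subset_mul_left P3)
      _ = (M a b a : Set G) * (M a b b * M a b a) * (M a b (a * b) * M a b (a * b)) := by
          simp only [mul_assoc]
      _ = (M a b a : Set G) * (M a b b * M a b a) * M a b (a * b) := by rw [idem]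
      _ ⊆ X a b := key
  have S3 : (M a b (a * b) : Set G) * X a b ⊆ X a b :=
    calc (M a b (a * b) : Set G) * X a b
        = (M a b (a * b) * M a b a : Set G) * (M a b b * M a b (a * b)) := by
          simp only [X, mul_assoc]
      _ ⊆ X a b * (M a b b * M a b (a * b)) := Set.mul_subset_mul_right P4
      _ = (M a b a : Set G) * M a b b * (M a b (a * b) * M a b b) * M a b (a * b) := by
          simp only [X, mul_assoc]
      _ ⊆ (M a b a : Set G) * M a b b * (M a b b * M a b a * M a b (a * b)) * M a b (a * b) :=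
          Set.mul_subset_mul_right (Set.mul_subset_mul_left P3)
      _ = (M a b a : Set G) * ((M a b b * M a b b) * M a b a) *
          (M a b (a * b) * M a b (a * b)) := by simp only [mul_assoc]
      _ = (M a b a : Set G) * (M a b b * M a b a) * M a b (a * b) := by rw [idem, idem]
      _ ⊆ X a b := key
  intro g hg
  have hg' : g ∈ Subgroup.closure ((M a b a : Set G) ∪ M a b b ∪ M a b (a * b)) := by
    rw [Subgroup.closure_union, Subgroup.closure_union, Subgroup.closure_eq, Subgroup.closure_eq,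
      Subgroup.closure_eq]
    exact hg
  have hone : (1 : G) ∈ X a b := ⟨1, ⟨1, one_mem _, 1, one_mem _, one_mul 1⟩, 1, one_mem _, one_mul 1⟩
  have step : ∀ x ∈ ((M a b a : Set G) ∪ M a b b ∪ M a b (a * b)), ∀ y ∈ X a b,
      x * y ∈ X a b ∧ x⁻¹ * y ∈ X a b := by
    rintro x ((hx | hx) | hx) y hy
    · exact ⟨S1 (Set.mul_mem_mul hx hy), S1 (Set.mul_mem_mul (inv_mem hx) hy)⟩
    · exact ⟨S2 (Set.mul_mem_mul hx hy), S2 (Set.mul_mem_mul (inv_mem hx) hy)⟩
    · exact ⟨S3 (Set.mul_mem_mul hx hy), S3 (Set.mul_mem_mul (inv_mem hx) hy)⟩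
  exact Subgroup.closure_induction_left (p := fun g _ => g ∈ X a b) hone
    (fun x hx y _ hy => (step x hx y hy).1) (fun x hx y _ hy => (step x hx y hy).2) hg'

/-- The fusion-free subgroup. -/
def Z (H : Subgroup G) : Subgroup G :=
  Subgroup.closure ({x | ∃ w, Inv H w ∧ x ∈ R w} ∪ {x | ∀ w, Inv H w → Commute w x})

theorem Z_le {a b : G} (hab : Four H a b) :
    Z H ≤ M a b a ⊔ M a b b ⊔ M a b (a * b) := by
  have ha := hab.inv₁
  have hb := hab.inv₂
  have hc := hab.inv₃ h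
  rw [Z, Subgroup.closure_le]
  rintro x (⟨w, hw, hx⟩ | hx)
  · obtain ⟨m12, ⟨m1, h1, m2, h2, rfl⟩, m3, h3, rfl⟩ :=
      subset_prod h hC ha hb hc (Or.inl rfl) (Or.inr (Or.inl rfl)) (Or.inr (Or.inr rfl))
        (fun z e1 e2 => mem_cen.mpr ⟨e1, e2⟩) (odd_card_R w)
        (fun y hy => conj_mem_R (h.commute hw.1 ha.1) hy)
        (fun y hy => conj_mem_R (h.commute hw.1 hb.1) hy) hx
    exact mul_mem (mul_mem (Subgroup.mem_sup_left (Subgroup.mem_sup_left h1))
      (Subgroup.mem_sup_left (Subgroup.mem_sup_right h2))) (Subgroup.mem_sup_right h3)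
  · exact Subgroup.mem_sup_right (Subgroup.mem_sup_right (mem_cen.mpr ⟨hx a ha, hx b hb⟩))

/-- No fusion inside `Z`. -/
theorem eq_of_conj_mem_Z {a b z : G} (hab : Four H a b) (hz : z ∈ Z H)
    (hw : z * a * z⁻¹ ∈ H) : z * a * z⁻¹ = a := by
  have ha := hab.inv₁
  have hb := hab.inv₂
  have hc := hab.inv₃ h
  have hcomm := h.commute ha.1 hb.1
  have ecb : a * b * b = a := by rw [mul_assoc, hb.mul_self, mul_one]
  have hne : a * b ≠ b := fun e => by
    have := ha.2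
    rw [mul_eq_right.mp e, orderOf_one] at this
    omega
  have hF : Four H (a * b) b := ⟨hc, hb, hne⟩
  have hz' := closed_X h hC hF z (Z_le h hC hF hz)
  rw [X, ecb] at hz'
  obtain ⟨m12, ⟨m3, h3, m2, h2, rfl⟩, m1, h1, rfl⟩ := hz'
  have M1 : Mem (a * b) b a := Or.inr (Or.inr ecb.symm)
  obtain ⟨r3, hr3, c3, hc3, rfl⟩ := (mem_M_iff (a := a * b) (b := b) (Or.inl rfl)).mp h3
  obtain ⟨r2, hr2, c2, hc2, rfl⟩ := (mem_M_iff (a := a * b) (b := b) (Or.inr (Or.inl rfl))).mp h2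
  obtain ⟨r1, hr1, c1, hc1, rfl⟩ := (mem_M_iff (a := a * b) (b := b) M1).mp h1
  obtain ⟨o2, ho2⟩ : ∃ o2, o2 = c3 * r2 * c3⁻¹ := ⟨_, rfl⟩
  have ho2R : o2 ∈ R b := ho2 ▸ conj_mem_R (commute_of_Mem (Or.inr (Or.inl rfl)) hc3) hr2
  have hz_eq : r3 * c3 * (r2 * c2) * (r1 * c1) = r3 * o2 * ((c3 * c2) * r1 * c1) := by
    rw [ho2]; group
  have hfix : Commute a ((c3 * c2) * r1 * c1) :=
    ((commute_of_Mem M1 (mul_mem hc3 hc2)).mul_right (commute_of_mem_R hr1)).mul_right
      (commute_of_Mem M1 hc1)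
  obtain ⟨w, hwdef⟩ : ∃ w, w = r3 * c3 * (r2 * c2) * (r1 * c1) * a *
      (r3 * c3 * (r2 * c2) * (r1 * c1))⁻¹ := ⟨_, rfl⟩
  rw [← hwdef] at hw ⊢
  have hw_eq : r3⁻¹ * w * r3 = o2 * a * o2⁻¹ := by
    rw [hwdef, hz_eq]
    calc r3⁻¹ * (r3 * o2 * ((c3 * c2) * r1 * c1) * a *
          (r3 * o2 * ((c3 * c2) * r1 * c1))⁻¹) * r3
        = o2 * ((c3 * c2) * r1 * c1 * a * ((c3 * c2) * r1 * c1)⁻¹) * o2⁻¹ := by group
      _ = o2 * a * o2⁻¹ := by rw [← hfix.eq, mul_inv_cancel_right]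
  obtain ⟨s2, hs2def⟩ : ∃ s2, s2 = a⁻¹ * (o2 * a * o2⁻¹) := ⟨_, rfl⟩
  obtain ⟨s3, hs3def⟩ : ∃ s3, s3 = w⁻¹ * (r3⁻¹ * w * r3) := ⟨_, rfl⟩
  have hs2R : s2 ∈ R b := by
    rw [hs2def, show a⁻¹ * (o2 * a * o2⁻¹) = (a⁻¹ * o2 * a⁻¹⁻¹) * o2⁻¹ by group]
    exact mul_mem (conj_mem_R (hcomm.symm.inv_right) ho2R) (inv_mem ho2R)
  have hcw : Commute (a * b) w := h.commute hc.1 hw
  have hs3R : s3 ∈ R (a * b) := by
    rw [hs3def, show w⁻¹ * (r3⁻¹ * w * r3) = (w⁻¹ * r3⁻¹ * w⁻¹⁻¹) * r3 by group]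
    exact mul_mem (conj_mem_R hcw.inv_right (inv_mem hr3)) hr3
  have hrel : a * s2 = w * s3 := by
    rw [hs2def, hs3def, mul_inv_cancel_left, mul_inv_cancel_left, hw_eq]
  have hcs2 : Commute (a * b) s2 := by
    have e : s2 = a⁻¹ * (w * s3) := by rw [← hrel, inv_mul_cancel_left]
    rw [e]
    exact (h.commute hc.1 ha.1).inv_right.mul_right (hcw.mul_right (commute_of_mem_R hs3R))
  have has2 : Commute a s2 := ecb ▸ hcs2.mul_left (commute_of_mem_R hs2R)
  have hs2one : s2 = 1 := by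
    refine eq_one_of_eq_inv (orderOf_odd (odd_card_R b) hs2R) ?_
    calc s2⁻¹ = o2 * a⁻¹ * o2⁻¹ * a := by rw [hs2def]; group
      _ = o2 * a * o2⁻¹ * a⁻¹ := by rw [ha.inv_eq]
      _ = a * s2 * a⁻¹ := by rw [hs2def]; group
      _ = s2 := by rw [has2.eq, mul_inv_cancel_right]
  have hs3one : s3 = 1 := by
    have hs3H : s3 = w⁻¹ * a := by
      rw [← mul_one a, ← hs2one, hrel, inv_mul_cancel_left]
    obtain ⟨j, hj⟩ := h.exists_orderOf (hs3H ▸ mul_mem (inv_mem hw) ha.1 : s3 ∈ H)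
    have hodd := orderOf_odd (odd_card_R _) hs3R
    rw [hj] at hodd
    have hj0 : j = 0 := by
      by_contra hne'
      exact Nat.not_even_iff_odd.mpr hodd (Nat.even_pow.mpr ⟨even_two, hne'⟩)
    rw [hj0, pow_zero, orderOf_eq_one_iff] at hj
    exact hj
  rw [← mul_one a, ← hs2one, hrel, hs3one, mul_one]

omit h hC in
theorem Z_conj_mem {n : G} (hn : n ∈ Subgroup.normalizer (H : Set G)) {z : G} (hz : z ∈ Z H) :
    n * z * n⁻¹ ∈ Z H := by
  have hInv : ∀ w, Inv H w → Inv H (n * w * n⁻¹) := fun w hw =>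
    ⟨(Subgroup.mem_normalizer_iff.mp hn w).mp hw.1,
      (orderOf_injective (MulAut.conj n).toMonoidHom (MulAut.conj n).injective w).trans hw.2⟩
  have hle : Z H ≤ (Z H).comap (MulAut.conj n).toMonoidHom := by
    conv_lhs => rw [Z]
    rw [Subgroup.closure_le]
    rintro x (⟨w, hw, hx⟩ | hx)
    · exact Subgroup.subset_closure (Or.inl ⟨_, hInv w hw, conj_mem_R_conj n hx⟩)
    · refine Subgroup.subset_closure (Or.inr fun w hw => ?_)
      have h1 : Inv H (n⁻¹ * w * n⁻¹⁻¹) :=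
        ⟨(Subgroup.mem_normalizer_iff.mp (inv_mem hn) w).mp hw.1,
          (orderOf_injective (MulAut.conj n⁻¹).toMonoidHom (MulAut.conj n⁻¹).injective w).trans hw.2⟩
      have := (Commute.conj_iff n).mpr (hx _ h1)
      rwa [show n * (n⁻¹ * w * n⁻¹⁻¹) * n⁻¹ = w by group] at this
  exact hle hz

theorem odd_subgroup_le_Z {a b : G} (hab : Four H a b) {K : Subgroup G} (hK : Odd (Nat.card K))
    (hn : ∀ t ∈ H, ∀ y ∈ K, t * y * t⁻¹ ∈ K) : K ≤ Z H := by
  classical
  haveI := Fintype.ofFinite G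
  have ha := hab.inv₁
  have hb := hab.inv₂
  have hc := hab.inv₃ h
  have key : ∀ v, Inv H v → ∀ x ∈ K, Commute v x → x ∈ Z H := by
    intro v hv
    suffices key' : ∀ S : Finset G, ∀ x ∈ K, Commute v x →
        (∀ w, Inv H w → w ∉ S → Commute w x) → x ∈ Z H by
      exact fun x hx hvx => key' Finset.univ x hx hvx fun w _ hw => absurd (Finset.mem_univ w) hw
    intro S
    induction S using Finset.induction_on with
    | empty =>
      intro x _ _ hx
      exact Subgroup.subset_closure (Or.inr fun w hw => hx w hw (Finset.notMem_empty w))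
    | insert w S hwS ih =>
      intro x hx hvx hout
      by_cases hw : Inv H w
      · obtain ⟨c, hcK, hwc, hvc, i, hi, rfl, -, hpres⟩ :=
          split_R h hC hv hw hK (hn w hw.1) hx hvx
        refine mul_mem (ih c hcK hvc fun u hu huS => ?_) (Subgroup.subset_closure (Or.inl ⟨v, hv, hi⟩))
        by_cases huw : u = w
        · exact huw ▸ hwc
        · exact hpres u (h.commute hu.1 hw.1) (hout u hu (by simp [huw, huS]))
      · refine ih x hx hvx fun u hu huS => hout u hu ?_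
        simp only [Finset.mem_insert, not_or]
        exact ⟨fun e => hw (e ▸ hu), huS⟩
  intro x hx
  obtain ⟨x1, h1, c1, x2, h2, c2, x3, h3, c3, rfl⟩ :=
    exists_three_factor hK (h.commute ha.1 hb.1) ha.mul_self hb.mul_self (hn a ha.1) (hn b hb.1) hx
  exact mul_mem (mul_mem (key a ha x1 h1 c1) (key b hb x2 h2 c2)) (key _ hc x3 h3 c3)

end

end CfsgLib.ExtremelyClosed
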