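import Cfsg.Agent.ExtremelyClosed.Abelian

/-!
# Extremely closed abelian 2-subgroups: the theorem

* `concl`: `G = O(G) N(H)`, by induction from Glauberman's Z*-theorem.
* `normalizer_sup_oddCore`: the join form.
-/

set_option autoImplicit false
set_option linter.style.haveILetI false

namespace CfsgLib.ExtremelyClosed

open Cfsg CfsgLib.ZStar

universe u

variable {G : Type u} [Group G] [Finite G] {H : Subgroup G}

theorem card_lt_of_ne_top {M : Subgroup G} (h : M ≠ ⊤) : Nat.card M < Nat.card G :=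
  lt_of_le_of_ne (Subgroup.card_le_card_group M) fun e => h (Subgroup.eq_top_of_card_eq M e)

/-- The hypothesis passes to the quotient by a central involution of `H`. -/
theorem concl_of_central (h : EC H) {z : G} (hzH : z ∈ H) (hz : orderOf z = 2)
    (hzc : z ∈ Subgroup.center G)
    (ih : ∀ (K : Type u) [Group K] [Finite K] (L : Subgroup K),
      Nat.card K < Nat.card G → EC L → Concl L) : Concl H := by
  set Q := Subgroup.zpowers z
  haveI hQn : Q.Normal := ⟨fun x hx g => by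
    rw [Subgroup.mem_center_iff.mp (Subgroup.zpowers_le.mpr hzc hx) g, mul_inv_cancel_right]
    exact hx⟩
  set f := QuotientGroup.mk' Q with hf
  have hQH : Q ≤ H := Subgroup.zpowers_le.mpr hzH
  have hlt : Nat.card (G ⧸ Q) < Nat.card G := by
    have h1 := Q.card_eq_card_quotient_mul_card_subgroup
    rw [show Nat.card Q = 2 by rw [Nat.card_zpowers, hz]] at h1
    have := Nat.card_pos (α := G ⧸ Q)
    omega
  have hback : ∀ x : G, f x ∈ Subgroup.normalizer ((H.map f : Subgroup (G ⧸ Q)) : Set (G ⧸ Q)) →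
      x ∈ Subgroup.normalizer (H : Set G) := by
    intro x hx
    refine mem_normalizer_of_conj_mem fun y hy => ?_
    have h1 : f (x * y * x⁻¹) ∈ H.map f := by
      rw [map_mul, map_mul, map_inv]
      exact (Subgroup.mem_normalizer_iff.mp hx _).mp ⟨y, hy, rfl⟩
    obtain ⟨y', hy', he⟩ := h1
    have h2 : y'⁻¹ * (x * y * x⁻¹) ∈ Q := QuotientGroup.eq.mp he
    have h3 := mul_mem hy' (hQH h2)
    rwa [mul_inv_cancel_left] at h3
  have hbar : EC (H.map f) := by
    refine ⟨h.isPGroup.map f, ⟨⟨?_⟩⟩, ?_⟩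
    · rintro ⟨_, a, ha, rfl⟩ ⟨_, b, hb, rfl⟩
      apply Subtype.ext
      show f a * f b = f b * f a
      rw [← map_mul, ← map_mul, (h.commute ha hb).eq]
    intro gb
    obtain ⟨g, rfl⟩ := QuotientGroup.mk'_surjective Q gb
    have hmap : (H.map f).map (MulAut.conj (f g)).toMonoidHom =
        (H.map (MulAut.conj g).toMonoidHom).map f := by
      rw [Subgroup.map_map, Subgroup.map_map]
      congr 1
    rw [hmap, ← Subgroup.map_sup]
    refine le_antisymm ?_ (fun x hx => Subgroup.mem_inf.mpr ⟨?_, Subgroup.le_normalizer hx⟩)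
    · rintro _ ⟨⟨t, ht, rfl⟩, htN⟩
      refine ⟨t, ?_, rfl⟩
      rw [← h.closed g]
      exact Subgroup.mem_inf.mpr ⟨ht, hback t htN⟩
    · exact Subgroup.map_mono le_sup_left hx
  intro g
  obtain ⟨kb, hk, nb, hn, he⟩ := ih _ _ hlt hbar (f g)
  obtain ⟨k, rfl⟩ := QuotientGroup.mk'_surjective Q kb
  have hkn : k⁻¹ * g ∈ Subgroup.normalizer (H : Set G) :=
    hback _ (by rw [map_mul, map_inv, he, inv_mul_cancel_left]; exact hn)
  set M := (pPrimeCore 2 (G ⧸ Q)).comap f with hM
  have hkM : k ∈ M := hk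
  obtain ⟨a, b, ha, hb, hab, ⟨j, hj⟩, hb2⟩ := Transfer.exists_pPart_decomposition (p := 2) k
  have haM : a ∈ M := Subgroup.zpowers_le.mpr hkM ha
  have hbM : b ∈ M := Subgroup.zpowers_le.mpr hkM hb
  have haQ : a ∈ Q := by
    refine (QuotientGroup.eq_one_iff a).mp ?_
    have h1 : orderOf (f a) ∣ 2 ^ j := (orderOf_map_dvd f a).trans hj
    have h2 : Odd (orderOf (f a)) :=
      orderOf_odd (odd_of_not_two_dvd Constrained.pPrimeCore_not_dvd) haM
    exact orderOf_eq_one_iff.mp (Nat.Coprime.eq_one_of_dvd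
      ((Nat.coprime_two_right.mpr h2).pow_right j) h1)
  have hQM : Q ≤ M := fun x hx => by
    show f x ∈ pPrimeCore 2 (G ⧸ Q)
    rw [show f x = 1 from (QuotientGroup.eq_one_iff x).mpr hx]
    exact one_mem _
  have hQp : IsPGroup 2 (Q.subgroupOf M) :=
    (IsPGroup.of_card (n := 1) (by rw [Nat.card_zpowers, hz, pow_one]) : IsPGroup 2 Q).of_equiv
      (Subgroup.subgroupOfEquivOfLe hQM).symm
  obtain ⟨P, hP⟩ := hQp.exists_le_sylow
  have hPQ : (P : Subgroup M) = Q.subgroupOf M := by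
    refine le_antisymm (fun x hx => ?_) hP
    rw [Subgroup.mem_subgroupOf]
    refine (QuotientGroup.eq_one_iff (x : G)).mp ?_
    obtain ⟨i, hi⟩ := IsPGroup.iff_orderOf.mp P.2 ⟨x, hx⟩
    rw [Subgroup.orderOf_mk, ← Subgroup.orderOf_coe] at hi
    have h1 : orderOf (f (x : G)) ∣ 2 ^ i := hi ▸ orderOf_map_dvd f _
    exact orderOf_eq_one_iff.mp (Nat.Coprime.eq_one_of_dvd
      ((Nat.coprime_two_right.mpr (orderOf_odd
        (odd_of_not_two_dvd Constrained.pPrimeCore_not_dvd) x.2)).pow_right i) h1)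
  have hburn : Subgroup.normalizer ((P : Subgroup M) : Set M) ≤
      Subgroup.centralizer ((P : Subgroup M) : Set M) := by
    intro x _
    rw [Subgroup.mem_centralizer_iff]
    intro y hy
    rw [SetLike.mem_coe, hPQ, Subgroup.mem_subgroupOf] at hy
    exact Subtype.ext ((Subgroup.mem_center_iff.mp (Subgroup.zpowers_le.mpr hzc hy) (x : G)).symm)
  have hbker : (⟨b, hbM⟩ : M) ∈ (MonoidHom.transferSylow P hburn).ker := by
    rw [MonoidHom.mem_ker, ← orderOf_eq_one_iff]
    obtain ⟨i, hi⟩ := IsPGroup.iff_orderOf.mp P.2 (MonoidHom.transferSylow P hburn ⟨b, hbM⟩)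
    have h1 : orderOf (MonoidHom.transferSylow P hburn ⟨b, hbM⟩) ∣ orderOf b :=
      (orderOf_map_dvd (MonoidHom.transferSylow P hburn) (⟨b, hbM⟩ : M)).trans
        (dvd_of_eq (Subgroup.orderOf_mk b hbM))
    rw [hi] at h1 ⊢
    exact Nat.Coprime.eq_one_of_dvd (hb2.symm.pow_left i) h1
  have hbO : b ∈ pPrimeCore 2 G :=
    Constrained.map_pPrimeCore_subgroup_le M ⟨⟨b, hbM⟩, Constrained.le_pPrimeCore_of_not_dvd
      inferInstance (MonoidHom.not_dvd_card_ker_transferSylow P hburn) hbker, rfl⟩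
  refine ⟨b, hbO, a * (k⁻¹ * g), mul_mem (Subgroup.le_normalizer (hQH haQ)) hkn, ?_⟩
  have hcomm : Commute a b := Subgroup.mem_centralizer_singleton_iff.mp
    (Subgroup.zpowers_le.mpr (Subgroup.mem_centralizer_singleton_iff.mpr
      (Subgroup.mem_center_iff.mp (Subgroup.zpowers_le.mpr hzc haQ) k)) hb) |> Eq.symm
  rw [← mul_assoc, ← hcomm.eq, ← hab, mul_inv_cancel_left]

/-- An involution of `H` without fusion in `H` gives the conclusion. -/
theorem concl_of_no_fusion (h : EC H) (hC : CentConcl H) {a : G} (ha : Inv H a)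
    (hnf : ∀ g : G, g * a * g⁻¹ ∈ H → g * a * g⁻¹ = a) : Concl H := by
  set C := Subgroup.centralizer ({a} : Set G)
  have hHC : H ≤ C := fun x hx =>
    Subgroup.mem_centralizer_singleton_iff.mpr (h.commute hx ha.1).eq
  have hiso : InZStar 2 a := by
    refine inZStar_of_isolated ha.2 fun g hc => ?_
    obtain ⟨P, hP⟩ := (h.isPGroup.of_equiv
      (Subgroup.subgroupOfEquivOfLe hHC).symm).exists_le_sylow
    have hPN : (P : Subgroup C).map C.subtype ≤ Subgroup.normalizer (H : Set G) :=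
      h.le_normalizer_of_two_group (P.2.map _) fun x hx => ⟨⟨x, hHC hx⟩, hP hx, rfl⟩
    set y : C := ⟨g * a * g⁻¹, Subgroup.mem_centralizer_singleton_iff.mpr hc.eq.symm⟩
    have hy2 : orderOf y = 2 := by
      rw [← Subgroup.orderOf_coe]
      exact (orderOf_injective (MulAut.conj g).toMonoidHom (MulAut.conj g).injective a).trans ha.2
    obtain ⟨P', hP'⟩ := (IsPGroup.of_card (n := 1)
      (by rw [Nat.card_zpowers, hy2, pow_one]) : IsPGroup 2 (Subgroup.zpowers y)).exists_le_sylow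
    obtain ⟨c, hc'⟩ := MulAction.exists_smul_eq C P' P
    have hm : c * y * c⁻¹ ∈ (P : Subgroup C) := by
      rw [← hc']; exact ⟨y, hP' (Subgroup.mem_zpowers y), rfl⟩
    have h1 : ((c : G) * g) * a * ((c : G) * g)⁻¹ ∈ H :=
      h.mem_of_conj ha.1 (hPN ⟨_, hm, by simp [y, mul_assoc]⟩)
    have h2 := hnf _ h1
    have hca : (c : G) * a * (c : G)⁻¹ = a :=
      mul_inv_eq_iff_eq_mul.mpr (Subgroup.mem_centralizer_singleton_iff.mp c.2)
    apply (MulAut.conj (c : G)).injective
    show (c : G) * (g * a * g⁻¹) * (c : G)⁻¹ = (c : G) * a * (c : G)⁻¹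
    rw [hca]
    simpa [mul_assoc] using h2
  obtain ⟨S, hS⟩ := (IsPGroup.of_card (n := 1)
    (by rw [Nat.card_zpowers, ha.2, pow_one]) : IsPGroup 2 (Subgroup.zpowers a)).exists_le_sylow
  have hZ : ∀ w ∈ Subgroup.zpowers a, InZStar 2 w := by
    intro w hw
    obtain ⟨i, rfl⟩ := Subgroup.mem_zpowers_iff.mp hw
    rcases Int.even_or_odd' i with ⟨j, rfl | rfl⟩
    · rw [zpow_mul, zpow_two, ha.mul_self, one_zpow]
      intro g
      simpa using one_mem (pPrimeCore 2 G)
    · rw [zpow_add, zpow_mul, zpow_two, ha.mul_self, one_zpow, one_mul, zpow_one]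
      exact hiso
  have hdec : ∀ g : G, ∃ o ∈ pPrimeCore 2 G, ∃ c ∈ C, g = o * c := by
    intro g
    obtain ⟨o, ho, c, hc, he⟩ := exists_mul_centralizer hS hZ g
    exact ⟨o, ho, c, (centralizer_zpowers_eq a).le hc, he⟩
  -- `O(C(a))` lies in `O(G)`
  have hRO : R a ≤ pPrimeCore 2 G := by
    set L := pPrimeCore 2 G ⊔ R a
    have hLn : L.Normal := by
      refine ⟨fun x hx g => ?_⟩
      obtain ⟨o, ho, r, hr, rfl⟩ := Subgroup.mem_sup_of_normal_left.mp hx
      obtain ⟨o', ho', c, hc, rfl⟩ := hdec g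
      have hoc : Commute a c := (Subgroup.mem_centralizer_singleton_iff.mp hc).symm
      have e : o' * c * (o * r) * (o' * c)⁻¹ = o' * (c * o * c⁻¹) * (c * r * c⁻¹) * o'⁻¹ := by group
      rw [e]
      exact mul_mem (mul_mem (mul_mem (Subgroup.mem_sup_left ho')
        (Subgroup.mem_sup_left ((pPrimeCore_normal 2 G).conj_mem o ho c)))
        (Subgroup.mem_sup_right (conj_mem_R hoc hr))) (inv_mem (Subgroup.mem_sup_left ho'))
    exact le_sup_right.trans (Constrained.le_pPrimeCore_of_not_dvd hLn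
      (Constrained.not_dvd_card_sup Constrained.pPrimeCore_not_dvd (not_dvd_card_coreC 2 _)))
  intro g
  obtain ⟨o, ho, c, hc, rfl⟩ := hdec g
  obtain ⟨⟨k, hkC⟩, hk, ⟨n, hnC⟩, hn, he⟩ := hC a ha ⟨c, hc⟩
  refine ⟨o * k, mul_mem ho (hRO (mem_coreC_zpowers hkC hk)), n, ?_,
    by rw [show c = k * n from congrArg Subtype.val he, mul_assoc]⟩
  rw [← Subgroup.subgroupOf_normalizer_eq hHC] at hn
  exact hn

/-- **Extremely closed abelian 2-subgroups.** -/
theorem concl (h : EC H) : Concl H := by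
  suffices key : ∀ (N : ℕ) (K : Type u) [Group K] [Finite K] (L : Subgroup K),
      Nat.card K = N → EC L → Concl L from key _ G H rfl h
  intro N
  induction N using Nat.strong_induction_on with
  | _ N ih =>
  intro G _ _ H hN h
  subst hN
  replace ih : ∀ (K : Type u) [Group K] [Finite K] (L : Subgroup K),
      Nat.card K < Nat.card G → EC L → Concl L := fun K _ _ L hlt => ih _ hlt K L rfl
  by_cases hbot : H = ⊥
  · intro g
    refine ⟨1, one_mem _, g, ?_, (one_mul g).symm⟩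
    subst hbot
    exact mem_normalizer_of_conj_mem fun y hy => by
      rw [Subgroup.mem_bot.mp hy]; simp
  by_cases hz : ∃ z, Inv H z ∧ z ∈ Subgroup.center G
  · obtain ⟨z, ⟨hz1, hz2⟩, hz3⟩ := hz
    exact concl_of_central h hz1 hz2 hz3 ih
  push Not at hz
  have hC : CentConcl H := by
    intro v hv
    refine ih _ _ (card_lt_of_ne_top fun he => hz v hv ?_) (h.subgroupOf fun x hx =>
      Subgroup.mem_centralizer_singleton_iff.mpr (h.commute hx hv.1).eq)
    rw [Subgroup.mem_center_iff]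
    exact fun g => Subgroup.mem_centralizer_singleton_iff.mp (he ▸ Subgroup.mem_top g)
  obtain ⟨a, ha⟩ : ∃ a, Inv H a := by
    obtain ⟨j, hj⟩ := h.isPGroup.exists_card_eq
    have hdvd : 2 ∣ Nat.card H := by
      rw [hj]
      refine dvd_pow_self 2 fun h0 => hbot (Subgroup.card_eq_one.mp ?_)
      rw [hj, h0, pow_zero]
    obtain ⟨⟨a, ha⟩, ha2⟩ := exists_prime_orderOf_dvd_card' 2 hdvd
    exact ⟨a, ha, by rwa [Subgroup.orderOf_mk] at ha2⟩
  by_cases hb : ∃ b, Inv H b ∧ a ≠ b
  · obtain ⟨b, hb, hab⟩ := hb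
    have hF : Four H a b := ⟨ha, hb, hab⟩
    have hdec : ∀ g : G, ∃ k ∈ Z H, ∃ n ∈ Subgroup.normalizer (H : Set G), g = k * n := by
      intro g
      obtain ⟨K, hK, hn, -, k, hk, hkg⟩ := h.exists_core g
      refine ⟨k⁻¹, inv_mem (odd_subgroup_le_Z h hC hF hK
        (fun t ht => hn t (Subgroup.mem_sup_left ht)) hk), k * g, hkg, by group⟩
    have hZn : (Z H).Normal := by
      refine ⟨fun z hz g => ?_⟩
      obtain ⟨k, hk, n, hn, rfl⟩ := hdec g
      rw [show k * n * z * (k * n)⁻¹ = k * (n * z * n⁻¹) * k⁻¹ by group]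
      exact mul_mem (mul_mem hk (Z_conj_mem hn hz)) (inv_mem hk)
    haveI := hZn
    by_cases htop : Z H ⊔ H = ⊤
    · refine concl_of_no_fusion h hC ha fun g hg => ?_
      obtain ⟨z, hz', x, hx, rfl⟩ :=
        Subgroup.mem_sup_of_normal_left.mp (htop ▸ Subgroup.mem_top g)
      have e : z * x * a * (z * x)⁻¹ = z * a * z⁻¹ := by
        rw [show z * x * a * (z * x)⁻¹ = z * (x * a * x⁻¹) * z⁻¹ by group,
          mul_inv_eq_iff_eq_mul.mpr (h.commute hx ha.1).eq]
      rw [e] at hg ⊢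
      exact eq_of_conj_mem_Z h hC hF hz' hg
    · set M := Z H ⊔ H
      have hMn : M.Normal := by
        refine ⟨fun y hy g => ?_⟩
        obtain ⟨z, hz', x, hx, rfl⟩ := Subgroup.mem_sup_of_normal_left.mp hy
        obtain ⟨k, hk, n, hn, rfl⟩ := hdec g
        rw [show k * n * (z * x) * (k * n)⁻¹ = k * (n * z * n⁻¹) * (n * x * n⁻¹) * k⁻¹ by group]
        exact mul_mem (mul_mem (mul_mem (Subgroup.mem_sup_left hk)
          (Subgroup.mem_sup_left (Z_conj_mem hn hz')))
          (Subgroup.mem_sup_right ((Subgroup.mem_normalizer_iff.mp hn x).mp hx)))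
          (inv_mem (Subgroup.mem_sup_left hk))
      haveI := hMn
      have hM := ih _ _ (card_lt_of_ne_top htop) (h.subgroupOf (M := M) le_sup_right)
      intro g
      obtain ⟨z, hz', n, hn, rfl⟩ := hdec g
      obtain ⟨k, hk, n', hn', he⟩ := hM ⟨z, Subgroup.mem_sup_left hz'⟩
      refine ⟨(k : G), Constrained.map_pPrimeCore_subgroup_le M ⟨k, hk, rfl⟩, (n' : G) * n,
        mul_mem ?_ hn, by rw [← mul_assoc, show z = (k : G) * n' from congrArg Subtype.val he]⟩
      rw [← Subgroup.subgroupOf_normalizer_eq (le_sup_right : H ≤ M)] at hn'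
      exact hn'
  · push Not at hb
    exact concl_of_no_fusion h hC ha fun g hg => (hb _ ⟨hg,
      (orderOf_injective (MulAut.conj g).toMonoidHom (MulAut.conj g).injective a).trans ha.2⟩).symm

theorem normalizer_sup_oddCore (h : EC H) :
    Subgroup.normalizer (H : Set G) ⊔ oddCore G = ⊤ := by
  rw [eq_top_iff]
  intro g _
  obtain ⟨k, hk, n, hn, rfl⟩ := concl h g
  exact mul_mem (Subgroup.mem_sup_right hk) (Subgroup.mem_sup_left hn)

end CfsgLib.ExtremelyClosed
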